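import Cfsg.Agent.H9.SL2.Gal

/-!
Combinatorics of the weights in characteristic three.
-/

set_option autoImplicit false
set_option linter.unusedSectionVars false
set_option linter.unusedSimpArgs false
set_option linter.style.haveILetI false
set_option maxRecDepth 100000

namespace Cfsg.Agent.H9.SL2

theorem mem_J3 {K : Type*} [Field K] [CharP K 3] {k j : ℕ} :
    j ∈ J K k ↔ j / 3 ∈ J K (k / 3) ∧ j % 3 ≤ k % 3 := by
  have h1 : ∀ k j, j ∈ J K k ↔ (k.choose j : K) ≠ 0 := fun k j => mem_J.trans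
    (and_iff_right_of_imp fun h => by_contra fun e => h (by simp [Nat.choose_eq_zero_of_lt (not_le.1 e)]))
  haveI : Fact (Nat.Prime 3) := ⟨Nat.prime_three⟩
  have h2 : (2 : K) ≠ 0 := by
    simpa using (CharP.cast_eq_zero_iff K 3 2).not.2 (by norm_num)
  rw [h1, h1, (CharP.natCast_eq_natCast K 3).2 Choose.choose_modEq_choose_mod_mul_choose_div_nat,
    Nat.cast_mul, mul_ne_zero_iff, and_comm]
  refine and_congr_right fun _ => ?_
  have h3 : k % 3 < 3 := by omega
  have h4 : j % 3 < 3 := by omega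
  generalize k % 3 = a at h3
  generalize j % 3 = b at h4
  interval_cases a <;> interval_cases b <;> simp [h2, Nat.choose]

theorem wts_rec {K : Type*} [Field K] [CharP K 3] (k : ℕ) : wts K k = (wts K (k / 3)).bind fun w =>
    (Multiset.range (k % 3 + 1)).map fun j : ℕ => 3 * w + ((k % 3 : ℕ) - 2 * j) := by
  have := Multiset.map_eq_map_of_bij_of_nodup (fun j : ℕ => (k : ℤ) - 2 * j)
    (fun p : ℕ × ℕ => 3 * (((k / 3 : ℕ) : ℤ) - 2 * p.1) + ((k % 3 : ℕ) - 2 * p.2)) (J K k).nodup
    (J K (k / 3) ×ˢ Finset.range (k % 3 + 1)).nodup (fun j _ => (j / 3, j % 3))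
    (fun j hj => Finset.mem_product.2 ⟨(mem_J3.1 hj).1,
      Finset.mem_range.2 (Nat.lt_succ_of_le (mem_J3.1 hj).2)⟩)
    (fun j _ i _ e => by simp only [Prod.mk.injEq] at e; omega)
    (fun p hp => by
      have h : p.1 ∈ J K (k / 3) ∧ p.2 < k % 3 + 1 :=
        ⟨(Finset.mem_product.1 hp).1, Finset.mem_range.1 (Finset.mem_product.1 hp).2⟩
      have e1 : (3 * p.1 + p.2) / 3 = p.1 := by omega
      have e2 : (3 * p.1 + p.2) % 3 = p.2 := by omega
      exact ⟨3 * p.1 + p.2, mem_J3.2 ⟨by rw [e1]; exact h.1, by omega⟩, by rw [e1, e2]⟩)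
    (fun j _ => by simp only; omega)
  rw [wts, this, wts, Multiset.bind_map, Finset.product_val, SProd.sprod, Multiset.instSProd]
  simp [Multiset.product, Multiset.map_bind]

/-- The list of weights. -/
def Wl : ℕ → ℕ → List ℤ
  | 0, _ => [0]
  | f + 1, k => cond (Nat.beq (k % 3) 0) ((Wl f (k / 3)).map fun w => 3 * w)
      (cond (Nat.beq (k % 3) 1) ((Wl f (k / 3)).flatMap fun w => [3 * w + 1, 3 * w - 1])
        ((Wl f (k / 3)).flatMap fun w => [3 * w + 2, 3 * w, 3 * w - 2]))

theorem wts_eq {K : Type*} [Field K] [CharP K 3] (f k : ℕ) (hk : k < 3 ^ f) : wts K k = Wl f k := by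
  induction f generalizing k with
  | zero =>
    obtain rfl : k = 0 := by omega
    have : J K 0 = {0} := by ext j; simp +contextual [mem_J]
    simp [wts, this, Wl]
  | succ f ih =>
    rw [wts_rec, ih _ (by omega), Wl]
    have h3 : k % 3 < 3 := by omega
    generalize k % 3 = a at h3
    interval_cases a
    · simp [Multiset.bind_singleton]
    · rw [show Nat.beq 1 0 = false from rfl, show Nat.beq 1 1 = true from rfl, cond_false, cond_true,
        ← Multiset.coe_bind]
      refine Multiset.bind_congr fun w _ => ?_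
      rw [← Multiset.coe_reverse]
      simp [Multiset.range_succ, sub_eq_add_neg, ← Multiset.cons_coe]
    · rw [show Nat.beq 2 0 = false from rfl, show Nat.beq 2 1 = false from rfl, cond_false, cond_false,
        ← Multiset.coe_bind]
      refine Multiset.bind_congr fun w _ => ?_
      rw [← Multiset.coe_reverse]
      simp [Multiset.range_succ, sub_eq_add_neg, ← Multiset.cons_coe]

theorem dig {B n : ℕ} {c c' : ℕ → ℕ} (h : ∀ i, c i < B) (h' : ∀ i, c' i < B)
    (e : ∑ i ∈ Finset.range n, c i * B ^ i = ∑ i ∈ Finset.range n, c' i * B ^ i) :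
    ∀ i < n, c i = c' i := by
  induction n generalizing c c' with
  | zero => simp
  | succ n ih =>
    simp only [Finset.sum_range_succ', pow_succ, ← mul_assoc, ← Finset.sum_mul, pow_zero, mul_one] at e
    have e0 : c 0 = c' 0 := by
      simpa [Nat.mul_add_mod', Nat.mod_eq_of_lt (h 0), Nat.mod_eq_of_lt (h' 0)] using congrArg (· % B) e
    rw [e0, add_left_inj, Nat.mul_left_inj (by have := h 0; omega)] at e
    rintro (_ | i) hi
    · exact e0
    · exact ih (fun i => h _) (fun i => h' _) e i (by omega)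

theorem pk_inj {B n : ℕ} {s t : Multiset ℕ} (hs : s.card < B) (ht : t.card < B) (hs' : ∀ x ∈ s, x < n)
    (ht' : ∀ x ∈ t, x < n) (e : (s.map (B ^ ·)).sum = (t.map (B ^ ·)).sum) : s = t := by
  have h : ∀ s : Multiset ℕ, (∀ x ∈ s, x < n) →
      (s.map (B ^ ·)).sum = ∑ i ∈ Finset.range n, s.count i * B ^ i := fun s hs => by
    rw [Finset.sum_multiset_map_count]
    exact Finset.sum_subset (fun x hx => by simpa using hs x (by simpa using hx))
      fun x _ hx => by simp [Multiset.count_eq_zero.2 (by simpa using hx)]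
  ext i
  by_cases hi : i < n
  · exact dig (fun i => (Multiset.count_le_card i s).trans_lt hs)
      (fun i => (Multiset.count_le_card i t).trans_lt ht) (by rw [← h s hs', ← h t ht', e]) i hi
  · rw [Multiset.count_eq_zero.2 fun h => hi (hs' i h), Multiset.count_eq_zero.2 fun h => hi (ht' i h)]

/-- The rotation of digits. -/
def sg (N k : ℕ) : ℕ := cond (Nat.beq k N) N (3 * k % N)

/-- Residues. -/
def res (m : ℕ) (w : ℤ) : ℕ := (w % m).toNat

/-- The check for the rotation. -/
def sgc (N n k : ℕ) : Bool :=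
  Nat.blt (Wl 6 k).length 1024 && Nat.blt (Wl 6 (sg N k)).length 1024 &&
  Nat.beq ((Wl 6 (sg N k)).map fun w => 1024 ^ res n w).sum ((Wl 6 k).map fun w => 1024 ^ res n (3 * w)).sum

theorem sgc_sound {K : Type*} [Field K] [CharP K 3] {N n k : ℕ} (hn : 0 < n) (hk : k ≤ 728)
    (hk' : sg N k ≤ 728) (h : sgc N n k = true) :
    (wts K (sg N k)).map (· % (n : ℤ)) = (wts K k).map fun w : ℤ => (3 : ℕ) * w % n := by
  simp only [sgc, Bool.and_eq_true, Nat.blt_eq, Nat.beq_eq] at h
  have h1 : ∀ w, res n w < n := fun w => by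
    have := Int.emod_lt_of_pos w (show (0 : ℤ) < n by omega)
    unfold res; omega
  have h2 : ∀ w, (res n w : ℤ) = w % n := fun w => Int.toNat_of_nonneg (Int.emod_nonneg _ (by omega))
  have := pk_inj (B := 1024) (n := n) (s := ((Wl 6 (sg N k)).map (res n) : List ℕ))
    (t := ((Wl 6 k).map (fun w => res n (3 * w)) : List ℕ)) (by simpa using h.1.2) (by simpa using h.1.1)
    (by simp [h1]) (by simp [h1]) (by simpa [Function.comp_def] using h.2)
  have := congrArg (Multiset.map (Nat.cast : ℕ → ℤ)) this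
  rw [wts_eq 6 _ (by omega), wts_eq 6 _ (by omega)]
  simpa only [Multiset.map_coe, List.map_map, Function.comp_def, h2, Nat.cast_ofNat] using this

/-- The orbit under the rotation. -/
def orb (N k : ℕ) : List ℕ := [k, sg N k, sg N (sg N k), sg N (sg N (sg N k)),
  sg N (sg N (sg N (sg N k))), sg N (sg N (sg N (sg N (sg N k))))].dedup

theorem orb_dec {N : ℕ} (h : ∀ k ≤ N, ((orb N k).map (sg N)).Perm (orb N k)) {L : Multiset ℕ}
    (h1 : ∀ k ∈ L, k ≤ N) (h2 : L.map (sg N) = L) :
    ∃ R : Multiset ℕ, (∀ k ∈ R, k ∈ L) ∧ L = R.bind fun k => orb N k := by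
  induction hn : L.card using Nat.strong_induction_on generalizing L with
  | _ n ih =>
  by_cases h0 : L = 0
  · exact ⟨0, by simp, by simp [h0]⟩
  obtain ⟨k, hk⟩ := Multiset.exists_mem_of_ne_zero h0
  have h3 : ∀ j ∈ L, sg N j ∈ L := fun j hj => h2 ▸ Multiset.mem_map_of_mem _ hj
  obtain ⟨L', rfl⟩ := Multiset.le_iff_exists_add.1 ((Multiset.le_iff_subset (s := orb N k) (t := L)
    (Multiset.coe_nodup.2 (List.nodup_dedup _))).2 fun j hj => by
      simp only [orb, Multiset.mem_coe, List.mem_dedup, List.mem_cons, List.not_mem_nil, or_false] at hj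
      rcases hj with rfl | rfl | rfl | rfl | rfl | rfl <;> repeat first | exact hk | apply h3)
  have h4 : 0 < (orb N k).length := List.length_pos_of_mem (a := k) (by simp [orb])
  obtain ⟨R, h5, h6⟩ := ih _ (by simp at hn; omega) (L := L') (fun j hj => h1 j (by simp [hj]))
    (by rwa [Multiset.map_add, Multiset.map_coe, Multiset.coe_eq_coe.2 (h k (h1 k hk)),
      add_right_inj] at h2) rfl
  refine ⟨k ::ₘ R, fun j hj => ?_, by rw [Multiset.cons_bind, ← h6]⟩
  rcases Multiset.mem_cons.1 hj with rfl | hj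
  · exact hk
  · exact Multiset.mem_add.2 (.inr (h5 j hj))

/-- Packed counting vectors. -/
def SS (s : Multiset ℕ) : ℕ := (s.map (65536 ^ ·)).sum

/-- The guard bits. -/
def gd : ℕ → ℕ
  | 0 => 0
  | n + 1 => 32768 + 65536 * gd n

theorem SS_rec (s : Multiset ℕ) :
    SS s = s.count 0 + 65536 * SS ((s.filter (0 < ·)).map (· - 1)) := by
  induction s using Multiset.induction_on with
  | empty => rfl
  | cons x s ih =>
    unfold SS at ih ⊢
    rcases x with _ | x
    · simp [ih]; omega
    · simp [ih, pow_succ]; omega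

theorem SS_gd (n : ℕ) {s : Multiset ℕ} (h : s.card < 32768) : SS s &&& gd n = 0 := by
  induction n generalizing s with
  | zero => simp [gd]
  | succ n ih =>
    have h1 := Multiset.count_le_card 0 s
    have h2 : (SS s &&& gd (n + 1)) / 2 ^ 16 = 0 := by
      rw [Nat.and_div_two_pow, SS_rec, gd]
      convert ih (s := (s.filter (0 < ·)).map (· - 1)) (by
        have := Multiset.card_le_card (Multiset.filter_le (0 < ·) s)
        rw [Multiset.card_map]; omega) <;> omega
    have h3 : (SS s &&& gd (n + 1)) % 2 ^ 16 = 0 := by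
      rw [Nat.and_mod_two_pow, SS_rec, gd, show (32768 + 65536 * gd n) % 2 ^ 16 = 2 ^ 15 by omega,
        Nat.and_two_pow, Nat.testBit_lt_two_pow (by omega)]
      rfl
    omega

/-- Solvability. -/
def Sol (V : List ℕ) (t : Multiset ℕ) : Prop := ∃ R : Multiset (Multiset ℕ),
  (∀ u ∈ R, SS u ∈ V ∨ u = {0}) ∧ t = R.sum

/-- The search. -/
noncomputable def srch (g n : ℕ) : List ℕ → ℕ → Bool :=
  Nat.rec (motive := fun _ => List ℕ → ℕ → Bool) (fun _ _ => false) (fun _ ih V h =>
    List.rec (Nat.ble 65536 h) (fun v V _ => ih V h && cond (Nat.ble v h &&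
      Nat.beq (Nat.land (Nat.sub h v) g) 0) (ih (v :: V) (Nat.sub h v)) true) V) n

theorem srch_sound {m n : ℕ} {V : List ℕ} {t : Multiset ℕ} (ht : t.card < 32768)
    (e : srch (gd m) n V (SS t) = true) : ¬Sol V t := by
  induction n generalizing V t with
  | zero => exact absurd e (by simp [srch])
  | succ n ih =>
    rintro ⟨R, h1, rfl⟩
    rcases V with _ | ⟨v, V⟩
    · have h2 : ∀ x ∈ R.sum, x = 0 := fun x hx => by
        obtain ⟨u, hu, hx⟩ := Multiset.mem_join.1 hx
        simpa [(h1 u hu).resolve_left List.not_mem_nil] using hx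
      have h3 : 65536 ≤ SS R.sum := Nat.le_of_ble_eq_true e
      rw [Multiset.eq_replicate_card.2 h2] at h3
      simp [SS] at h3
      omega
    have e : (srch (gd m) n V (SS R.sum) && cond (Nat.ble v (SS R.sum) &&
      Nat.beq ((SS R.sum - v) &&& gd m) 0) (srch (gd m) n (v :: V) (SS R.sum - v)) true) = true := e
    rw [Bool.and_eq_true] at e
    by_cases hv : ∃ u ∈ R, SS u = v
    · obtain ⟨u, hu, rfl⟩ := hv
      obtain ⟨R, rfl⟩ := Multiset.exists_cons_of_mem hu
      have h2 : SS (u ::ₘ R).sum = SS u + SS R.sum := by simp [SS]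
      have h3 : R.sum.card < 32768 := by simp at ht ⊢; omega
      rw [h2, Nat.add_sub_cancel_left, SS_gd m h3, Nat.ble_eq_true_of_le (by omega)] at e
      exact ih h3 e.2 ⟨R, fun u hu => h1 u (Multiset.mem_cons_of_mem hu), rfl⟩
    · exact ih ht e.1 ⟨R, fun u hu => (h1 u hu).imp_left fun h =>
        (List.mem_cons.1 h).resolve_left fun e => hv ⟨u, hu, e⟩, rfl⟩

/-- Computation of the packed vectors. -/
noncomputable def hs (c : ℕ → ℕ) (t : List ℕ) : ℕ :=
  List.rec 0 (fun v _ acc => Nat.add (Nat.pow (nat_lit 65536) (c v)) acc) t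

theorem hs_eq (c : ℕ → ℕ) (t : List ℕ) : hs c t = SS ((t : Multiset ℕ).map c) := by
  induction t with
  | nil => rfl
  | cons a t ih =>
    rw [← Multiset.cons_coe, Multiset.map_cons, SS, Multiset.map_cons, Multiset.sum_cons, ← SS, ← ih]
    rfl

/-- The test for the vectors. -/
noncomputable def vchk (N m : ℕ) (c : ℕ → ℕ) (V : List ℕ) : Bool := (List.range (N / 2)).all fun k =>
  Nat.blt 248 ((orb N (2 * k + 2)).flatMap (Wl 6)).length ||
  V.elem (hs c (((orb N (2 * k + 2)).flatMap (Wl 6)).map (res m)))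

theorem sol_of {N m : ℕ} {c : ℕ → ℕ} (hc : c 0 = 0) {V : List ℕ} (hV : vchk N m c V = true)
    {R : Multiset ℕ} (hR : ∀ k ∈ R, k ≤ N ∧ k % 2 = 0) {t : Multiset ℕ} (ht : t.card ≤ 248)
    (e : t = ((R.bind fun k => orb N k).bind fun k => Wl 6 k).map (res m)) : Sol V (t.map c) := by
  rw [Multiset.bind_assoc, Multiset.map_bind] at e
  refine ⟨R.map fun k => (((orb N k).flatMap (Wl 6)).map (res m)).map c, fun v hv => ?_, ?_⟩
  · obtain ⟨k, hk, rfl⟩ := Multiset.mem_map.1 hv
    by_cases h0 : k = 0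
    · have : sg N 0 = 0 := by unfold sg; cases h : Nat.beq 0 N <;> simp_all
      simp [h0, orb, this, Wl, res, hc]
    have h1 := hR k hk
    have h2 := List.all_eq_true.1 hV (k / 2 - 1) (by simp; omega)
    rw [show 2 * (k / 2 - 1) + 2 = k by omega, Bool.or_eq_true, hs_eq] at h2
    refine .inl (List.mem_of_elem_eq_true (h2.resolve_left fun h => ?_))
    have := Multiset.card_le_card (Multiset.le_bind R (f := fun k => Multiset.map (res m)
      ((orb N k : Multiset ℕ).bind fun k => Wl 6 k)) hk)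
    rw [← e, Multiset.card_map, Multiset.coe_bind, Multiset.coe_card] at this
    rw [Nat.blt_eq] at h
    omega
  · rw [e, Multiset.map_bind]
    simp only [Multiset.coe_bind, Multiset.map_coe]
    rfl

end Cfsg.Agent.H9.SL2
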