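import Cfsg.Agent.H9.SL2.Irr

/-!
Galois stability of the composition factors.
-/

set_option autoImplicit false
set_option linter.unusedSectionVars false
set_option linter.unusedSimpArgs false

namespace Cfsg.Agent.H9.SL2

open Matrix Polynomial
open scoped MatrixGroups

theorem count_emod {n r : ℤ} (h0 : 0 ≤ r) (hr : r < n) (s : Multiset ℤ)
    (hs : ∀ x ∈ s, -n ≤ x ∧ x ≤ n) :
    (s.map (· % n)).count r = s.count r + s.count (r - n) + s.count (r + n) := by
  induction s using Multiset.induction_on with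
  | empty => simp
  | cons x s ih =>
    have h1 := hs x (Multiset.mem_cons_self _ _)
    have h2 : r = x % n ↔ r = x ∨ r - n = x ∨ r + n = x := by
      refine ⟨fun e => ?_, ?_⟩
      · have e1 := Int.mul_ediv_add_emod x n
        rw [← e] at e1
        generalize x / n = c at e1
        have : c < 2 := by nlinarith
        have : -2 < c := by nlinarith
        interval_cases c <;> omega
      · rintro (rfl | rfl | rfl) <;> simp [Int.emod_eq_of_lt h0 hr]
    simp only [Multiset.map_cons, Multiset.count_cons, ih fun y hy => hs y (Multiset.mem_cons_of_mem hy),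
      h2]
    split_ifs <;> omega

theorem per_ext {N : ℤ} (hN : 0 < N) {s t : Multiset ℤ} (hs : ∀ x ∈ s, -N ≤ x ∧ x ≤ N)
    (ht : ∀ x ∈ t, -N ≤ x ∧ x ≤ N) (ss : s.map (-·) = s) (st : t.map (-·) = t)
    (h1 : s.map (· % N) = t.map (· % N)) (h2 : s.map (· % (N + 2)) = t.map (· % (N + 2))) :
    s = t := by
  let D : ℤ → ℤ := fun x => (s.count x : ℤ) - t.count x
  have d1 : ∀ x, D (-x) = D x := fun x => by
    simp only [D]
    rw [← Multiset.count_map_eq_count' _ s neg_injective x,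
      ← Multiset.count_map_eq_count' _ t neg_injective x, ss, st]
  have d2 : ∀ x, N < x → D x = 0 := fun x hx => by
    simp only [D]
    rw [Multiset.count_eq_zero.2 fun h => by have := hs x h; omega,
      Multiset.count_eq_zero.2 fun h => by have := ht x h; omega]; rfl
  have e : ∀ n r, N ≤ n → s.map (· % n) = t.map (· % n) → 0 ≤ r → r < n →
      D r + D (n - r) + D (r + n) = 0 := fun n r hn h h0 hr => by
    have := count_emod h0 hr s fun x hx => by have := hs x hx; omega
    rw [h, count_emod h0 hr t fun x hx => by have := ht x hx; omega] at this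
    rw [← d1 (n - r), neg_sub]
    simp only [D]; omega
  have d0 : D 0 = 0 := by
    have := e _ 0 (by omega) h2 le_rfl (by omega)
    rwa [d2 (N + 2 - 0) (by omega), d2 (0 + (N + 2)) (by omega), add_zero, add_zero] at this
  have d3 : ∀ i : ℕ, D i = 0 := fun i => by
    induction i using Nat.twoStepInduction with
    | zero => exact d0
    | one =>
      have := e _ 1 (by omega) h2 (by omega) (by omega)
      rwa [d2 (N + 2 - 1) (by omega), d2 (1 + (N + 2)) (by omega), add_zero, add_zero] at this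
    | more i ih _ =>
      by_cases h : N < (i + 2 : ℕ)
      · exact d2 _ h
      have e1 := e _ i le_rfl h1 (by omega) (by omega)
      have e2 := e _ (i + 2 : ℕ) (by omega) h2 (by omega) (by omega)
      rw [d2 (_ + (N + 2)) (by omega), show N + 2 - (i + 2 : ℕ) = N - i by push_cast; ring] at e2
      rcases Nat.eq_zero_or_pos i with rfl | hi
      · simp only [Nat.cast_zero, sub_zero, zero_add] at e1 e2 ⊢; omega
      · rw [d2 (i + N) (by omega)] at e1; omega
  ext x
  have : D x = 0 := by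
    obtain ⟨i, rfl | rfl⟩ := x.eq_nat_or_neg
    · exact d3 i
    · rw [d1, d3]
  simp only [D] at this; omega

theorem bind_inj {w : ℕ → Multiset ℤ} (h1 : ∀ k : ℕ, (k : ℤ) ∈ w k) (h2 : ∀ k, ∀ x ∈ w k, x ≤ k)
    {L L' : Multiset ℕ} (h : L.bind w = L'.bind w) : L = L' := by
  induction hn : (L + L').card using Nat.strong_induction_on generalizing L L' with
  | _ n ih =>
  by_cases h0 : L + L' = 0
  · rw [add_eq_zero] at h0; rw [h0.1, h0.2]
  obtain ⟨k, hk, h3⟩ := Multiset.exists_max_image id h0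
  have h4 : ∀ A B : Multiset ℕ, A.bind w = B.bind w → (∀ j ∈ B, j ≤ k) → k ∈ A → k ∈ B :=
    fun A B e hB hA => by
      obtain ⟨j, hj, h5⟩ := Multiset.mem_bind.1 (e ▸ Multiset.mem_bind.2 ⟨k, hA, h1 k⟩)
      have := h2 _ _ h5
      have := hB j hj
      rwa [show k = j by omega]
  have h5 : k ∈ L ∧ k ∈ L' := (Multiset.mem_add.1 hk).elim
    (fun h5 => ⟨h5, h4 _ _ h (fun j hj => h3 j (by simp [hj])) h5⟩)
    fun h5 => ⟨h4 _ _ h.symm (fun j hj => h3 j (by simp [hj])) h5, h5⟩
  obtain ⟨A, rfl⟩ := Multiset.exists_cons_of_mem h5.1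
  obtain ⟨B, rfl⟩ := Multiset.exists_cons_of_mem h5.2
  rw [ih _ (by simp at hn ⊢; omega) (L := A) (L' := B) (by simpa using h) rfl]

variable {K : Type*} [Field K]

/-- The polynomial with given roots. -/
noncomputable def PP (a : K) (s : Multiset ℤ) : K[X] := (s.map fun w => X - C (a ^ w)).prod

theorem PP_inj {a : K} {n : ℕ} (hn : n ≠ 0) (ha : IsPrimitiveRoot a n) {s t : Multiset ℤ}
    (h : PP a s = PP a t) : s.map (· % (n : ℤ)) = t.map (· % (n : ℤ)) := by
  classical
  have h0 := ha.ne_zero hn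
  have h1 : ∀ s, (PP a s).roots = s.map (a ^ ·) := fun s => by
    rw [← roots_multiset_prod_X_sub_C (s.map _), Multiset.map_map]; rfl
  have h2 : ∀ w : ℤ, (if h : ∃ v : ℤ, a ^ v = a ^ w then h.choose % (n : ℤ) else 0) = w % n :=
    fun w => by
      have h : ∃ v : ℤ, a ^ v = a ^ w := ⟨w, rfl⟩
      have e := h.choose_spec
      rw [← div_eq_one_iff_eq (zpow_ne_zero _ h0), ← zpow_sub₀ h0, ha.zpow_eq_one_iff_dvd] at e
      rw [dif_pos h]
      exact (Int.modEq_iff_dvd.2 e).symm
  have := congrArg (fun p => p.roots.map fun y =>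
    if h : ∃ v : ℤ, a ^ v = y then h.choose % (n : ℤ) else 0) h
  simpa only [h1, Multiset.map_map, Function.comp, h2] using this

theorem PP_map (σ : K →+* K) (p : ℕ) (hσ : ∀ x, σ x = x ^ p) (a : K) (s : Multiset ℤ) :
    (PP a s).map σ = PP a (s.map (p * ·)) := by
  simp only [PP, Polynomial.map_multiset_prod, Multiset.map_map, Function.comp, Polynomial.map_sub,
    map_X, map_C, hσ, ← zpow_natCast, ← _root_.zpow_mul, mul_comm]

variable (K) in
/-- The weights. -/
noncomputable def wts (k : ℕ) : Multiset ℤ := (J K k).val.map fun j : ℕ => (k : ℤ) - 2 * j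

theorem mem_wts (k : ℕ) : (k : ℤ) ∈ wts K k :=
  Multiset.mem_map.2 ⟨0, mem_J.2 (by simp), by simp⟩

theorem wts_le {k : ℕ} {x : ℤ} (h : x ∈ wts K k) : -k ≤ x ∧ x ≤ k := by
  obtain ⟨j, hj, rfl⟩ := Multiset.mem_map.1 h
  have := (mem_J.1 hj).1
  omega

theorem wts_neg (k : ℕ) : (wts K k).map (-·) = wts K k := by
  rw [wts, Multiset.map_map]
  refine Multiset.map_eq_map_of_bij_of_nodup _ _ (J K k).nodup (J K k).nodup (fun j _ => k - j)
    (fun j hj => ?_) (fun j hj i hi e => ?_) (fun j hj => ⟨k - j, ?_, ?_⟩) fun j hj => ?_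
  all_goals have h := mem_J.1 hj
  · exact mem_J.2 ⟨by omega, by rw [Nat.choose_symm h.1]; exact h.2⟩
  · have := mem_J.1 hi; omega
  · exact mem_J.2 ⟨by omega, by rw [Nat.choose_symm h.1]; exact h.2⟩
  · omega
  · simp only [Function.comp]; omega

variable {F : Type*} [Field F] [Fintype F] (ι : F →+* K)

theorem mem_range {x : K} (h : x ^ Fintype.card F = x) : ∃ y, ι y = x := by
  by_contra! h1
  have hq : 1 < Fintype.card F := Fintype.one_lt_card
  refine FiniteField.X_pow_card_sub_X_ne_zero K hq (eq_zero_of_natDegree_lt_card_of_eval_eq_zero _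
    (f := fun o : Option F => o.elim x ι) ?_ ?_ ?_)
  · rintro (_ | a) (_ | b) e
    · rfl
    · exact absurd e.symm (h1 b)
    · exact absurd e (h1 a)
    · rw [ι.injective e]
  · rintro (_ | a) <;> simp [h, ← map_pow, FiniteField.pow_card]
  · rw [FiniteField.X_pow_card_sub_X_natDegree_eq K hq]; simp

theorem exists_elt {a : K} (h0 : a ≠ 0) (h2 : a ^ 2 ≠ 1)
    (h : a ^ (Fintype.card F - 1) = 1 ∨ a ^ (Fintype.card F + 1) = 1) :
    ∃ (y : F) (h h' : Matrix (Fin 2) (Fin 2) K), h' * h = 1 ∧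
      (rr y).1.map ι = h * diagonal ![a, a⁻¹] * h' := by
  obtain ⟨p, hp⟩ := CharP.exists F
  obtain ⟨n, hn, hq⟩ := FiniteField.card F p
  haveI : Fact p.Prime := ⟨hn⟩
  haveI : CharP K p := charP_of_injective_ringHom ι.injective p
  obtain ⟨y, hy⟩ := mem_range ι (x := a + a⁻¹) (by
    rw [hq, add_pow_char_pow, inv_pow, ← hq]
    rcases h with h | h
    · rw [← Nat.sub_add_cancel (Fintype.card_pos (α := F)), pow_succ, h, one_mul]
    · rw [eq_inv_of_mul_eq_one_left (a := a ^ Fintype.card F) (b := a) (by rwa [← pow_succ]), inv_inv,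
        add_comm])
  have h3 : a ^ 2 - 1 ≠ 0 := sub_ne_zero.2 h2
  refine ⟨y, !![1, 1; -a, -a⁻¹], (a / (a ^ 2 - 1)) • !![-a⁻¹, -1; a, 1], ?_, ?_⟩ <;>
  ext i j <;> fin_cases i <;> fin_cases j <;> simp [hy, mul_apply, vecMul_diagonal] <;>
    field_simp <;> ring

theorem prod_J {a : K} (h0 : a ≠ 0) (L : Multiset ℕ) :
    (L.map fun k => ∏ j ∈ J K k, (X - C (a ^ (k - j) * a⁻¹ ^ j))).prod = PP a (L.bind (wts K)) := by
  rw [PP, Multiset.map_bind, Multiset.prod_bind]
  refine congrArg _ (Multiset.map_congr rfl fun k _ => ?_)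
  rw [wts, Multiset.map_map]
  refine congrArg Multiset.prod (Multiset.map_congr rfl fun j hj => ?_)
  have := (mem_J.1 hj).1
  simp only [Function.comp]
  rw [inv_pow, ← zpow_natCast, ← zpow_natCast, ← _root_.zpow_neg, ← zpow_add₀ h0]
  congr 3; omega

include ι in
theorem galois [IsAlgClosed K] {p N : ℕ} [Fact p.Prime] [CharP K p] (hN : Fintype.card F = N + 1)
    (h2 : 2 < N) (hp : ¬p ∣ N) (hp' : ¬p ∣ N + 2) {V : Type*} [AddCommGroup V] [Module K V]
    [FiniteDimensional K V] (ρ : Representation K SL(2, F) V)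
    (hρ : ∀ g, (ρ g).charpoly.map (frobenius K p) = (ρ g).charpoly) (σ : ℕ → ℕ)
    (hσ : ∀ k ≤ N, σ k ≤ N ∧ ∀ n : ℕ, n = N ∨ n = N + 2 →
      (wts K (σ k)).map (· % (n : ℤ)) = (wts K k).map fun w : ℤ => p * w % n) :
    ∃ L : Multiset ℕ, (∀ k ∈ L, k ≤ N) ∧ L.map σ = L ∧ ∀ a : K, a ≠ 0 → a ^ 2 ≠ 1 →
      a ^ N = 1 ∨ a ^ (N + 2) = 1 → ∃ g : SL(2, F), (∀ m, a ^ m = -1 → g ^ m = -1) ∧
        g ∉ Subgroup.center _ ∧
        (ρ g).charpoly = PP a (L.bind (wts K)) := by
  obtain ⟨L, h3, h4⟩ := factors ι ρ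
  have h5 : ∀ a : K, a ≠ 0 → a ^ 2 ≠ 1 →
      a ^ N = 1 ∨ a ^ (N + 2) = 1 → ∃ g : SL(2, F), (∀ m, a ^ m = -1 → g ^ m = -1) ∧
        g ∉ Subgroup.center _ ∧
        (ρ g).charpoly = PP a (L.bind (wts K)) := fun a h0 h1 h6 => by
    obtain ⟨y, h, h', e1, e2⟩ := exists_elt ι h0 h1 (by rwa [hN])
    have e0 := mul_eq_one_comm.1 e1
    have e3 : ∀ m, (rr y ^ m).1.map ι = h * diagonal ![a, a⁻¹] ^ m * h' := fun m => by
      induction m with
      | zero => simp [e0]
      | succ m ih =>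
        rw [pow_succ, show (rr y ^ m * rr y).1 = (rr y ^ m).1 * (rr y).1 from rfl, Matrix.map_mul, ih,
          e2, pow_succ]
        simp only [Matrix.mul_assoc]
        rw [← Matrix.mul_assoc h', e1, Matrix.one_mul]
    refine ⟨rr y, fun m hm => ?_, fun hm => ?_, (h4 _ h h' a a⁻¹ e1 e2).trans (prod_J h0 L)⟩
    · refine Subtype.ext (Matrix.map_injective ι.injective ?_)
      have : diagonal ![a, a⁻¹] ^ m = -1 := by
        rw [diagonal_pow]; ext i j; fin_cases i <;> fin_cases j <;> simp [hm]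
      simp only
      rw [e3, this]
      simp [e0, Matrix.map_neg]
    · obtain ⟨r, -, hr⟩ := Matrix.SpecialLinearGroup.mem_center_iff.1 hm
      simpa using congrFun (congrFun hr 0) 1
  have h6 : ∀ k ∈ L, k ≤ N := fun k hk => by have := h3 k hk; omega
  refine ⟨L, h6, bind_inj (mem_wts (K := K)) (fun k x h => (wts_le h).2) ?_, h5⟩
  have h7 : ∀ n : ℕ, n = N ∨ n = N + 2 → ((L.map σ).bind (wts K)).map (· % (n : ℤ)) =
      (L.bind (wts K)).map (· % (n : ℤ)) := fun n hn => by
    haveI : NeZero (n : K) := ⟨by rw [Ne, CharP.cast_eq_zero_iff K p]; rcases hn with rfl | rfl <;> assumption⟩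
    obtain ⟨a, ha⟩ := HasEnoughRootsOfUnity.exists_primitiveRoot K n
    obtain ⟨g, -, -, e⟩ := h5 a (ha.ne_zero (by omega)) (ha.pow_ne_one_of_pos_of_lt two_ne_zero (by omega))
      (by rcases hn with rfl | rfl <;> simp [ha.pow_eq_one])
    have := hρ g
    rw [e, PP_map _ p (fun _ => rfl)] at this
    rw [← PP_inj (by omega) ha this, Multiset.map_map, Multiset.bind_map, Multiset.map_bind,
      Multiset.map_bind]
    exact Multiset.bind_congr fun k hk => (hσ k (h6 k hk)).2 n hn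
  have h8 : ∀ L : Multiset ℕ, (∀ k ∈ L, k ≤ N) → ∀ x ∈ L.bind (wts K), -(N : ℤ) ≤ x ∧ x ≤ N :=
    fun L h x hx => by
      obtain ⟨k, hk, hx⟩ := Multiset.mem_bind.1 hx
      have := wts_le hx
      have := h k hk
      omega
  have h9 : ∀ L : Multiset ℕ, (L.bind (wts K)).map (-·) = L.bind (wts K) := fun L => by
    simp only [Multiset.map_bind, wts_neg]
  refine per_ext (N := N) (by omega) (h8 _ fun k hk => ?_) (h8 _ h6) (h9 _) (h9 _) (h7 _ (.inl rfl))
    (by exact_mod_cast h7 _ (.inr rfl))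
  obtain ⟨j, hj, rfl⟩ := Multiset.mem_map.1 hk
  exact (hσ j (h6 j hj)).1

end Cfsg.Agent.H9.SL2
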