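import Cfsg.Agent.H9.SL2.Mod

/-!
Composition factors of representations of `SL₂(q)` in the defining characteristic.
-/

set_option autoImplicit false
set_option linter.unusedSectionVars false
set_option linter.unusedSimpArgs false

namespace Cfsg.Agent.H9.SL2

open Matrix Polynomial Finset
open scoped MatrixGroups

universe u

variable {K : Type*} [Field K] {F : Type*} [Field F] [Fintype F] (ι : F →+* K)

/-- Upper unitriangular matrices. -/
def uu (b : F) : SL(2, F) := ⟨!![1, b; 0, 1], by simp [det_fin_two]⟩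

/-- Lower unitriangular matrices. -/
def ll (b : F) : SL(2, F) := ⟨!![1, 0; b, 1], by simp [det_fin_two]⟩

/-- Diagonal matrices. -/
def tt (c : Fˣ) : SL(2, F) := ⟨!![(c⁻¹ : Fˣ), 0; 0, c], by simp [det_fin_two]⟩

/-- Companion matrices. -/
def rr (b : F) : SL(2, F) := ⟨!![0, -1; 1, b], by simp [det_fin_two]⟩

@[simp] theorem uu_val (b : F) : (uu b).1 = !![1, b; 0, 1] := rfl
@[simp] theorem ll_val (b : F) : (ll b).1 = !![1, 0; b, 1] := rfl
@[simp] theorem tt_val (c : Fˣ) : (tt c).1 = !![((c⁻¹ : Fˣ) : F), 0; 0, c] := rfl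
@[simp] theorem rr_val (b : F) : (rr b).1 = !![0, -1; 1, b] := rfl

theorem uu_add (a b : F) : uu (a + b) = uu a * uu b := by
  ext i j; fin_cases i <;> fin_cases j <;> simp [add_comm]

theorem uu_zero : uu (0 : F) = 1 := by
  ext i j; fin_cases i <;> fin_cases j <;> simp

theorem uu_pow (a : F) (n : ℕ) : uu a ^ n = uu (n * a) := by
  induction n with
  | zero => simp [uu_zero]
  | succ n ih => rw [pow_succ, ih, ← uu_add]; push_cast; ring_nf

theorem mul_10 (x y : SL(2, F)) : (x * y) 1 0 = x 1 0 * y 0 0 + x 1 1 * y 1 0 := by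
  simp [mul_apply, Fin.sum_univ_two]

theorem mul_11 (x y : SL(2, F)) : (x * y) 1 1 = x 1 0 * y 0 1 + x 1 1 * y 1 1 := by
  simp [mul_apply, Fin.sum_univ_two]

theorem det2 (x : SL(2, F)) : x 0 0 * x 1 1 - x 0 1 * x 1 0 = 1 := by
  rw [← det_fin_two]; exact x.2

variable {V : Type u} [AddCommGroup V] [Module K V] (ρ : Representation K SL(2, F) V)

include ι in
theorem exists_fixed [Nontrivial V] : ∃ v ≠ 0, ∀ b, ρ (uu b) v = v := by
  classical
  obtain ⟨p, hp⟩ := CharP.exists F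
  haveI : Fact p.Prime := ⟨CharP.char_is_prime F p⟩
  haveI : CharP K p := charP_of_injective_ringHom ι.injective p
  haveI : CharP (Module.End K V) p :=
    charP_of_injective_algebraMap (algebraMap K (Module.End K V)).injective p
  suffices ∀ s : Finset F, ∃ v ≠ 0, ∀ b ∈ s, (ρ (uu b) - 1) v = 0 by
    obtain ⟨v, h1, h2⟩ := this univ
    exact ⟨v, h1, fun b => by simpa [sub_eq_zero] using h2 b (mem_univ _)⟩
  intro s
  induction s using Finset.induction_on with
  | empty => simpa using exists_ne (0 : V)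
  | insert c s _ ih =>
    obtain ⟨v, h1, h2⟩ := ih
    have h3 : ∃ m : ℕ, ((ρ (uu c) - 1 : Module.End K V) ^ m) v = 0 := ⟨p, by
      rw [sub_pow_char_of_commute _ (Commute.one_right _), ← map_pow, uu_pow]; simp [uu_zero]⟩
    have h4 := Nat.find_spec h3
    obtain ⟨m, hm⟩ := Nat.exists_eq_succ_of_ne_zero (n := Nat.find h3) fun e => by
      rw [e] at h4; exact h1 (by simpa using h4)
    refine ⟨_, Nat.find_min h3 (m := m) (by omega), fun b hb => ?_⟩
    rcases mem_insert.1 hb with rfl | hb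
    · rwa [hm, pow_succ'] at h4
    · have : Commute (ρ (uu b) - 1) (ρ (uu c) - 1) :=
        (Commute.sub_right (by rw [Commute, SemiconjBy, ← map_mul, ← map_mul, ← uu_add, ← uu_add,
          add_comm]) (Commute.one_right _)).sub_left (Commute.one_left _)
      rw [← Module.End.mul_apply, (this.pow_right m).eq, Module.End.mul_apply, h2 b hb, map_zero]

include ι in
theorem card_K : (Fintype.card F : K) = 0 := by
  rw [← map_natCast ι, FiniteField.cast_card_eq_zero, map_zero]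

theorem exists_phi [Nontrivial V] : ∃ φ : Module.Dual K V, φ ≠ 0 ∧ ∃ k, 0 < k ∧ k < Fintype.card F ∧
    ∀ b : SL(2, F), b 1 0 = 0 → ∀ s, φ (ρ b s) = ι (b 1 1) ^ k * φ s := by
  classical
  obtain ⟨φ, h0, h1⟩ := exists_fixed ι ρ.dual
  have h2 : ∀ b s, φ (ρ (uu b) s) = φ s := fun b s => by
    conv_lhs => rw [← h1 b]
    change φ (ρ (uu b)⁻¹ (ρ (uu b) s)) = _
    rw [← Module.End.mul_apply, ← map_mul, inv_mul_cancel, map_one, Module.End.one_apply]
  have h3 : ∀ (x : SL(2, F)) (c : Fˣ), x 1 0 = 0 → x 1 1 = c → ∀ s, φ (ρ x s) = φ (ρ (tt c) s) :=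
    fun x c e1 e2 s => by
      have e3 := det2 x
      have : x = uu (x 0 1 / c) * tt c := by
        rw [e1, e2, mul_zero, sub_zero] at e3
        ext i j; fin_cases i <;> fin_cases j <;> simp [e1, e2, eq_inv_of_mul_eq_one_left e3]
      rw [this, map_mul, Module.End.mul_apply, h2]
  let ψ : ℕ → Module.Dual K V := fun k => ∑ c : Fˣ, ι (c⁻¹ : Fˣ) ^ k • φ ∘ₗ ρ (tt c)
  have hq : 1 < Fintype.card F := Fintype.one_lt_card
  have h4 : ∑ k ∈ range (Fintype.card F - 1), ψ (k + 1) = -φ := by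
    rw [Finset.sum_comm, Finset.sum_eq_single 1]
    · have : tt (1 : Fˣ) = 1 := by ext i j; fin_cases i <;> fin_cases j <;> simp
      simp only [inv_one, Units.val_one, map_one, one_pow, this, one_smul, sum_const, card_range,
        Module.End.one_eq_id, LinearMap.comp_id]
      rw [← Nat.cast_smul_eq_nsmul K, Nat.cast_sub hq.le, card_K ι]; simp
    · intro c _ hc
      rw [← Finset.sum_smul]
      have h5 : ι (c⁻¹ : Fˣ) - 1 ≠ 0 := fun e => hc (by
        rw [sub_eq_zero, ← map_one ι, ι.injective.eq_iff, Units.val_eq_one] at e; simpa using e)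
      have h6 := mul_geom_sum (ι (c⁻¹ : Fˣ)) (Fintype.card F - 1)
      rw [← map_pow, FiniteField.pow_card_sub_one_eq_one _ (Units.ne_zero _), map_one, sub_self,
        mul_eq_zero, or_iff_right h5] at h6
      simp only [pow_succ, ← Finset.sum_mul, h6, zero_mul, zero_smul]
    · simp
  obtain ⟨k, hk, h5⟩ := Finset.exists_ne_zero_of_sum_ne_zero (h4 ▸ neg_ne_zero.2 h0)
  refine ⟨_, h5, k + 1, by omega, by have := mem_range.1 hk; omega, fun b hb s => ?_⟩
  have h6 : b 1 1 ≠ 0 := fun e => by simpa [e, hb] using det2 b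
  simp only [ψ, LinearMap.sum_apply, LinearMap.smul_apply, LinearMap.comp_apply, smul_eq_mul,
    Finset.mul_sum]
  rw [← Equiv.sum_comp (Equiv.mulRight (Units.mk0 _ h6))
    fun c => ι (b 1 1) ^ (k + 1) * (ι (c⁻¹ : Fˣ) ^ (k + 1) * φ (ρ (tt c) s))]
  refine Finset.sum_congr rfl fun c _ => ?_
  rw [← Module.End.mul_apply, ← map_mul, h3 _ (c * Units.mk0 _ h6) (by simp [mul_10, hb])
    (by simp [mul_11]), ← mul_assoc, ← mul_pow, ← map_mul]
  simp [h6]

theorem sum_pow_ι {k : ℕ} (h0 : 0 < k) (hk : k < Fintype.card F) :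
    ∑ e : F, ι e ^ k = if k = Fintype.card F - 1 then -1 else 0 := by
  classical
  split_ifs with h
  · have : ∀ e : F, ι e ^ k = 1 - if e = 0 then 1 else 0 := fun e => by
      split_ifs with he
      · simp [he, h0.ne']
      · rw [← map_pow, h, FiniteField.pow_card_sub_one_eq_one _ he]; simp
    simp [this, card_K ι]
  · simp only [← map_pow, ← map_sum]
    rw [FiniteField.sum_pow_lt_card_sub_one F k (by omega), map_zero]

theorem core [Nontrivial V] (hs : ∀ S : Submodule K V, (∀ g, S ≤ S.comap (ρ g)) → S = ⊥ ∨ S = ⊤) :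
    ∃ φ : Module.Dual K V, (∀ s, (∀ x, φ (ρ x s) = 0) → s = 0) ∧ ∃ k, k < Fintype.card F ∧
      ∃ s, ∀ x, φ (ρ x s) = ι (x 1 0) ^ k := by
  classical
  obtain ⟨φ, h0, k, hk0, hk, h1⟩ := exists_phi ι ρ
  have hm : ∀ x y s, φ (ρ x (ρ y s)) = φ (ρ (x * y) s) := fun x y s => by
    rw [map_mul, Module.End.mul_apply]
  have h2 : ∀ s, (∀ x, φ (ρ x s) = 0) → s = 0 := fun s h => by
    rcases hs (⨅ x, LinearMap.ker (φ ∘ₗ ρ x)) (fun g s => by
      simp only [Submodule.mem_iInf, LinearMap.mem_ker, Submodule.mem_comap, LinearMap.comp_apply, hm]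
      exact fun h x => h _) with e | e
    · rw [← Submodule.mem_bot K, ← e]; simpa using h
    · refine absurd (LinearMap.ext fun s => ?_) h0
      have := (Submodule.mem_iInf _).1 (e ▸ Submodule.mem_top (x := s)) 1
      simpa using this
  refine ⟨φ, h2, ?_⟩
  obtain ⟨s, h3, h4⟩ := exists_fixed ι ρ
  have h5 : ∀ (x y : SL(2, F)) c, x 1 0 = c * y 1 0 → x 1 1 = c * y 1 1 →
      φ (ρ x s) = ι c ^ k * φ (ρ y s) := fun x y c e1 e2 => by
    have e3 := det2 y
    have := h1 (x * y⁻¹) (by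
      rw [mul_10, e1, e2]; simp [SpecialLinearGroup.coe_inv, adjugate_fin_two]; ring) (ρ y s)
    rw [hm, inv_mul_cancel_right] at this
    rw [this, mul_11, e1, e2]
    congr 3
    simp [SpecialLinearGroup.coe_inv, adjugate_fin_two]
    linear_combination c * e3
  have h6 : ∀ x : SL(2, F), φ (ρ x s) = ι (x 1 0) ^ k * φ (ρ (rr 0) s) +
      if x 1 0 = 0 then ι (x 1 1) ^ k * φ s else 0 := fun x => by
    split_ifs with h
    · rw [h5 x 1 (x 1 1) (by simp [h]) (by simp)]; simp [h, hk0.ne']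
    · rw [← h4 (-x 1 1 / x 1 0), hm, h4, h5 _ (rr 0) (x 1 0) (by simp [mul_10])
        (by simp [mul_11]; field_simp; ring), add_zero]
  have h7 : ∀ (c : K) s, c ≠ 0 → (∀ x : SL(2, F), φ (ρ x s) = ι (x 1 0) ^ k * c) →
      ∃ k, k < Fintype.card F ∧ ∃ s, ∀ x, φ (ρ x s) = ι (x 1 0) ^ k := fun c s hc h =>
    ⟨k, hk, c⁻¹ • s, fun x => by rw [map_smul, map_smul, h, smul_eq_mul]; field_simp⟩
  generalize φ (ρ (rr 0) s) = a, φ s = b at h6
  by_cases hb : b = 0
  · refine h7 a s (fun ha => h3 (h2 s fun x => ?_)) fun x => ?_ <;> simp [h6, *]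
  by_cases h8 : k = Fintype.card F - 1 ∧ a = b
  · refine ⟨0, by omega, b⁻¹ • s, fun x => ?_⟩
    rw [map_smul, map_smul, h6, smul_eq_mul, h8.2, pow_zero]
    split_ifs with h
    · rw [h, ← map_pow _ (x 1 1), map_zero, zero_pow hk0.ne', h8.1,
        FiniteField.pow_card_sub_one_eq_one _ fun e => by simpa [e, h] using det2 x]
      simp [hb]
    · rw [← map_pow, h8.1, FiniteField.pow_card_sub_one_eq_one _ h]; simp [hb]
  refine h7 (b - if k = Fintype.card F - 1 then a else 0) (∑ y, ρ (uu y * (rr 0)⁻¹) s) ?_ fun x => ?_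
  · split_ifs with h
    · exact sub_ne_zero.2 fun e => h8 ⟨h, e.symm⟩
    · simpa using hb
  have h9 : ∀ y, φ (ρ x (ρ (uu y * (rr 0)⁻¹) s)) = ι (-(x 1 0 * y + x 1 1)) ^ k * a +
      if -(x 1 0 * y + x 1 1) = 0 then ι (x 1 0) ^ k * b else 0 := fun y => by
    rw [hm, h6, ← mul_assoc, mul_10, mul_11 _ (rr 0)⁻¹, mul_10, mul_11]
    simp [SpecialLinearGroup.coe_inv, adjugate_fin_two]
  simp only [map_sum, h9]
  by_cases h : x 1 0 = 0
  · simp [h, card_K ι, hk0.ne']
  refine (((Equiv.mulLeft₀ _ h).trans ((Equiv.addRight (x 1 1)).trans (Equiv.neg F))).sum_comp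
    fun e => ι e ^ k * a + if e = 0 then ι (x 1 0) ^ k * b else 0).trans ?_
  rw [Finset.sum_add_distrib, ← Finset.sum_mul, sum_pow_ι ι hk0 hk]
  split_ifs with h10
  · rw [← map_pow, h10, FiniteField.pow_card_sub_one_eq_one _ h]; simp; ring
  · simp

theorem simple [Nontrivial V]
    (hs : ∀ S : Submodule K V, (∀ g, S ≤ S.comap (ρ g)) → S = ⊥ ∨ S = ⊤) :
    ∃ k, k < Fintype.card F ∧ ∃ e : V ≃ₗ[K] W K k, ∀ g, e.conj (ρ g) = TW k (g.1.map ι) := by
  obtain ⟨φ, h1, k, hk, s, h2⟩ := core ι ρ hs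
  let Φ : V →ₗ[K] (SL(2, F) → K) := LinearMap.pi fun x => φ ∘ₗ ρ x
  let Ψ0 : ((Fin 2 → K) → K) →ₗ[K] (SL(2, F) → K) := LinearMap.funLeft K K fun x i => ι (x 1 i)
  let Ψ : W K k →ₗ[K] (SL(2, F) → K) := Ψ0 ∘ₗ (W K k).subtype
  have hΦ : Function.Injective Φ := (injective_iff_map_eq_zero _).2 fun s h => h1 s (congrFun h)
  have hΨ : Function.Injective Ψ := (injective_iff_map_eq_zero _).2 fun f h =>
    Subtype.ext (W_eq_zero ι hk f.2 fun β => by
      rw [← show Ψ f (rr β) = 0 from congrFun h _]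
      exact congrArg f.1 (funext fun i => by fin_cases i <;> simp))
  have h3 : ∀ g s f, Ψ f = Φ s → Ψ (TW k (g.1.map ι) f) = Φ (ρ g s) := fun g s f h => funext fun x => by
    have := congrFun h (x * g)
    change f.1 _ = φ (ρ (x * g) s) at this
    change f.1 (_ ᵥ* _) = φ (ρ x (ρ g s))
    rw [← Module.End.mul_apply, ← map_mul, ← this]
    exact congrArg f.1 (funext fun i => by simp [vecMul, dotProduct, mul_apply])
  have h4 : LinearMap.range Φ = LinearMap.range Ψ := by
    refine le_antisymm ?_ ?_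
    · rw [LinearMap.range_le_iff_comap]
      refine (hs ((LinearMap.range Ψ).comap Φ)
        fun g s ⟨f, h⟩ => ⟨_, h3 g s f h⟩).resolve_left fun e => ?_
      have : s = 0 := (Submodule.mem_bot K).1 (e ▸ ⟨⟨_, Submodule.subset_span ⟨![1, 0], rfl⟩⟩,
        funext fun x => (show pw k ![1, 0] _ = φ (ρ x s) by simp [pw, h2, vecHead])⟩)
      simpa [this] using h2 (rr 0)
    · rintro _ ⟨f, rfl⟩
      exact W_le ι hk ((LinearMap.range Φ).comap Ψ0) (fun β => ⟨ρ (ll β) s, funext fun x => by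
        change φ (ρ x (ρ (ll β) s)) = pw k _ _
        rw [← Module.End.mul_apply, ← map_mul, h2, mul_10]; simp [pw, vecHead, vecTail]⟩) f.2
  let e := (LinearEquiv.ofInjective Φ hΦ).trans
    ((LinearEquiv.ofEq _ _ h4).trans (LinearEquiv.ofInjective Ψ hΨ).symm)
  have he : ∀ s, Ψ (e s) = Φ s := fun s =>
    congrArg Subtype.val ((LinearEquiv.ofInjective Ψ hΨ).apply_symm_apply _)
  refine ⟨k, hk, e, fun g => LinearMap.ext fun f => hΨ ?_⟩
  rw [LinearEquiv.conj_apply_apply, he, h3 g (e.symm f) f (by rw [← he, e.apply_symm_apply])]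

/-- The characteristic polynomials are products of those of the simple modules. -/
theorem factors [Infinite K] [FiniteDimensional K V] :
    ∃ L : Multiset ℕ, (∀ k ∈ L, k < Fintype.card F) ∧ ∀ (g : SL(2, F)) h h' (a b : K), h' * h = 1 →
      g.1.map ι = h * diagonal ![a, b] * h' →
      (ρ g).charpoly = (L.map fun k => ∏ j ∈ J K k, (X - C (a ^ (k - j) * b ^ j))).prod := by
  induction hn : Module.finrank K V using Nat.strong_induction_on generalizing V with
  | _ n ih =>
  rcases subsingleton_or_nontrivial V with h0 | h0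
  · refine ⟨0, by simp, fun g h h' a b _ _ => ?_⟩
    rw [Multiset.map_zero, Multiset.prod_zero, ← (ρ g).charpoly_monic.natDegree_eq_zero,
      LinearMap.charpoly_natDegree, Module.finrank_zero_of_subsingleton]
  by_cases hs : ∀ S : Submodule K V, (∀ g, S ≤ S.comap (ρ g)) → S = ⊥ ∨ S = ⊤
  · obtain ⟨k, hk, e, he⟩ := simple ι ρ hs
    haveI := e.finiteDimensional
    refine ⟨{k}, by simpa, fun g h h' a b h1 h2 => ?_⟩
    rw [← e.charpoly_conj, he, h2, charpoly_TW ι hk h1]; simp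
  push Not at hs
  obtain ⟨S, h1, h2, h3⟩ := hs
  have h4 := S.finrank_quotient_add_finrank
  have h5 := Submodule.finrank_lt h3
  have h6 : Module.finrank K S ≠ 0 := fun e => h2 (Submodule.finrank_eq_zero.1 e)
  obtain ⟨L, h7, h8⟩ := ih _ (by omega) (ρ.subrepresentation S h1) rfl
  obtain ⟨L', h9, h10⟩ := ih _ (by omega) (ρ.quotient S h1) rfl
  refine ⟨L + L', fun k hk => (Multiset.mem_add.1 hk).elim (h7 k) (h9 k), fun g h h' a b e1 e2 => ?_⟩
  rw [charpoly_eq_mul _ S (h1 g), Multiset.map_add, Multiset.prod_add, ← h8 g h h' a b e1 e2,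
    ← h10 g h h' a b e1 e2]
  rfl

end Cfsg.Agent.H9.SL2
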