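import Mathlib

/-!
The modules spanned by powers of linear forms in two variables.
-/

set_option autoImplicit false
set_option linter.unusedSectionVars false
set_option linter.unusedSimpArgs false

namespace Cfsg.Agent.H9.SL2

open Matrix Polynomial Finset

variable {K : Type*} [Field K]

theorem charpoly_eq_mul [Infinite K] {V : Type*} [AddCommGroup V] [Module K V]
    [FiniteDimensional K V] (e : Module.End K V) (S : Submodule K V) (he : S ≤ S.comap e) :
    e.charpoly = (e.restrict he).charpoly * (S.mapQ S e he).charpoly := by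
  refine Polynomial.funext fun t => ?_
  have h : S ≤ S.comap (algebraMap K (Module.End K V) t - e) := fun x hx =>
    S.sub_mem (S.smul_mem t hx) (he hx)
  rw [eval_mul, LinearMap.eval_charpoly, LinearMap.eval_charpoly, LinearMap.eval_charpoly,
    LinearMap.det_eq_det_mul_det S _ h]
  congr 2
  ext x
  simp

/-- The action on functions. -/
def T (h : Matrix (Fin 2) (Fin 2) K) : Module.End K ((Fin 2 → K) → K) :=
  LinearMap.funLeft K K fun v => v ᵥ* h

theorem T_apply (h : Matrix (Fin 2) (Fin 2) K) (f : (Fin 2 → K) → K) (v : Fin 2 → K) :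
    T h f v = f (v ᵥ* h) := rfl

/-- Powers of linear forms. -/
def pw (k : ℕ) (c : Fin 2 → K) : (Fin 2 → K) → K := fun v => (v ⬝ᵥ c) ^ k

/-- Monomials. -/
def mon (k j : ℕ) : (Fin 2 → K) → K := fun v => v 0 ^ (k - j) * v 1 ^ j

variable (K) in
/-- The span of the powers. -/
def W (k : ℕ) : Submodule K ((Fin 2 → K) → K) := Submodule.span K (Set.range (pw k))

open Classical in
variable (K) in
/-- The exponents. -/
noncomputable def J (k : ℕ) : Finset ℕ := (range (k + 1)).filter fun j => (k.choose j : K) ≠ 0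

theorem mem_J {k j : ℕ} : j ∈ J K k ↔ j ≤ k ∧ (k.choose j : K) ≠ 0 := by
  simp [J, Nat.lt_succ_iff]

theorem T_W (k : ℕ) (h : Matrix (Fin 2) (Fin 2) K) : W K k ≤ (W K k).comap (T h) := by
  refine Submodule.span_le.2 ?_
  rintro _ ⟨c, rfl⟩
  refine Submodule.subset_span ⟨h *ᵥ c, funext fun v => ?_⟩
  simp only [T_apply, pw, dotProduct_mulVec]

theorem pw_eq (k : ℕ) (c : Fin 2 → K) :
    pw k c = ∑ j ∈ range (k + 1), (k.choose j * c 0 ^ (k - j) * c 1 ^ j) • mon k j := by
  funext v
  simp only [pw, mon, dotProduct, Fin.sum_univ_two, Finset.sum_apply, Pi.smul_apply, smul_eq_mul]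
  rw [add_comm, add_pow]
  exact Finset.sum_congr rfl fun j _ => by ring

theorem W_le_mon (k : ℕ) : W K k ≤ Submodule.span K (mon k '' J K k) := by
  refine Submodule.span_le.2 ?_
  rintro _ ⟨c, rfl⟩
  rw [pw_eq]
  refine Submodule.sum_mem _ fun j hj => ?_
  by_cases h : (k.choose j : K) = 0
  · simp [h]
  · exact Submodule.smul_mem _ _ (Submodule.subset_span ⟨j, mem_J.2 ⟨by simpa [Nat.lt_succ_iff] using hj, h⟩, rfl⟩)

variable {F : Type*} [Field F] [Fintype F] (ι : F →+* K)

theorem vdm {k : ℕ} (hk : k < Fintype.card F) {s : Finset ℕ} (hs : ∀ j ∈ s, j ≤ k) (c : ℕ → K)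
    (h : ∀ β : F, ∑ j ∈ s, c j * ι β ^ j = 0) : ∀ j ∈ s, c j = 0 := by
  have h1 : (∑ j ∈ s, monomial j (c j) : K[X]) = 0 :=
    eq_zero_of_natDegree_lt_card_of_eval_eq_zero _ ι.injective
      (fun β => by simpa [eval_finsetSum] using h β)
      (lt_of_le_of_lt (natDegree_sum_le_of_forall_le _ _ fun j hj =>
        (natDegree_monomial_le _).trans (hs j hj)) hk)
  intro j hj
  simpa [coeff_monomial, hj] using congrArg (coeff · j) h1

theorem mon_mem {k : ℕ} (hk : k < Fintype.card F) (S : Submodule K ((Fin 2 → K) → K))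
    (h : ∀ β, pw k ![1, ι β] ∈ S) {j : ℕ} (hj : j ∈ J K k) : mon k j ∈ S := by
  rw [← Submodule.Quotient.mk_eq_zero, ← Module.forall_dual_apply_eq_zero_iff K]
  intro φ
  obtain ⟨h1, h2⟩ := mem_J.1 hj
  have := vdm ι hk (s := range (k + 1)) (fun j hj => by simpa [Nat.lt_succ_iff] using hj)
    (fun j => k.choose j * φ (S.mkQ (mon k j))) (fun β => by
      have h3 := congrArg φ ((Submodule.Quotient.mk_eq_zero S).2 (h β))
      rw [← Submodule.mkQ_apply, pw_eq, map_sum, map_sum, map_zero] at h3
      rw [← h3]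
      exact Finset.sum_congr rfl fun j _ => by simp; ring) j (by simpa [Nat.lt_succ_iff] using h1)
  simpa [h2] using this

theorem W_le {k : ℕ} (hk : k < Fintype.card F) (S : Submodule K ((Fin 2 → K) → K))
    (h : ∀ β, pw k ![1, ι β] ∈ S) : W K k ≤ S :=
  (W_le_mon k).trans (Submodule.span_le.2 (by rintro _ ⟨j, hj, rfl⟩; exact mon_mem ι hk S h hj))

theorem sum_mon_eq_zero {k : ℕ} (hk : k < Fintype.card F) (c : ℕ → K)
    (h : ∀ β, (∑ j ∈ J K k, c j • mon k j) ![1, ι β] = 0) : ∀ j ∈ J K k, c j = 0 :=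
  vdm ι hk (fun j hj => (mem_J.1 hj).1) c fun β => by
    simpa [mon] using h β

theorem W_eq_zero {k : ℕ} (hk : k < Fintype.card F) {f : (Fin 2 → K) → K} (hf : f ∈ W K k)
    (h : ∀ β, f ![1, ι β] = 0) : f = 0 := by
  obtain ⟨c, rfl⟩ := (Submodule.mem_span_image_finset_iff_exists_fun' K).1 (W_le_mon k hf)
  exact Finset.sum_eq_zero fun j hj => by rw [sum_mon_eq_zero ι hk c h j hj, zero_smul]

/-- The monomial basis. -/
noncomputable def bas {k : ℕ} (hk : k < Fintype.card F) : Module.Basis (J K k) K (W K k) :=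
  Module.Basis.mk (v := fun j => ⟨mon k j,
      mon_mem ι hk (W K k) (fun _ => Submodule.subset_span ⟨_, rfl⟩) j.2⟩)
    (LinearIndependent.of_comp (W K k).subtype (Fintype.linearIndependent_iff.2 fun c hc j => by
      classical
      simpa using sum_mon_eq_zero ι hk (fun i => if h : i ∈ J K k then c ⟨i, h⟩ else 0) (fun β => by
        rw [← Finset.sum_coe_sort]
        simpa using congrFun hc _) j j.2))
    (by
      rintro ⟨f, hf⟩ -
      rw [← Submodule.apply_mem_span_image_iff_mem_span (W K k).injective_subtype, ← Set.range_comp]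
      have := W_le_mon k hf
      rwa [Set.image_eq_range] at this)

/-- The action on the span of the powers. -/
def TW (k : ℕ) (h : Matrix (Fin 2) (Fin 2) K) : Module.End K (W K k) := (T h).restrict (T_W k h)

theorem TW_mul (k : ℕ) (h h' : Matrix (Fin 2) (Fin 2) K) : TW k (h * h') = TW k h * TW k h' :=
  LinearMap.ext fun f => Subtype.ext (funext fun v => by
    simp [TW, LinearMap.restrict_apply, T_apply])

theorem TW_one (k : ℕ) : TW k (1 : Matrix (Fin 2) (Fin 2) K) = 1 :=
  LinearMap.ext fun f => Subtype.ext (funext fun v => by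
    simp [TW, LinearMap.restrict_apply, T_apply])

include ι in
theorem charpoly_TW {k : ℕ} (hk : k < Fintype.card F) [FiniteDimensional K (W K k)]
    {h h' : Matrix (Fin 2) (Fin 2) K} (hh : h' * h = 1) (a b : K) :
    (TW k (h * diagonal ![a, b] * h')).charpoly = ∏ j ∈ J K k, (X - C (a ^ (k - j) * b ^ j)) := by
  classical
  rw [← LinearMap.charpoly_toMatrix _ (bas ι hk), TW_mul, TW_mul, LinearMap.toMatrix_mul,
    charpoly_mul_comm, ← LinearMap.toMatrix_mul, ← mul_assoc, ← TW_mul, hh, TW_one, one_mul]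
  have : LinearMap.toMatrix (bas ι hk) (bas ι hk) (TW k (diagonal ![a, b])) =
      diagonal fun j : J K k => a ^ (k - j) * b ^ j.1 := by
    ext i j
    have : TW k (diagonal ![a, b]) (bas ι hk j) = (a ^ (k - j) * b ^ j.1) • bas ι hk j :=
      Subtype.ext (funext fun v => by
        simp [TW, bas, LinearMap.restrict_apply, T_apply, mon, vecMul_diagonal]; ring)
    rw [LinearMap.toMatrix_apply, this, map_smul, Module.Basis.repr_self, diagonal_apply]
    by_cases h : i = j <;> simp [h, Finsupp.single_apply, eq_comm]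
  rw [this, charpoly_diagonal, Finset.prod_coe_sort (J K k) fun j => X - C (a ^ (k - j) * b ^ j)]

end Cfsg.Agent.H9.SL2
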